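import Cfsg.Agent.Base
import Cfsg.Agent.Lib.Fact.Wielandt
import Cfsg.Agent.Lib.Core.CoprimeSylow
import Cfsg.Agent.S0143

/-!
Wielandt's theorem: a finite group with nilpotent Hall `π`- and `π'`-subgroups is solvable.
-/

set_option autoImplicit false

namespace H22

open Subgroup Cfsg
open scoped Pointwise commutatorElement

variable {G : Type*} [Group G] {π σ : Set ℕ}

theorem isPiHall_of_normalizer_le [Finite G] {H : Subgroup G} (hH : Group.IsNilpotent H)
    (hN : ∀ r : ℕ, r.Prime → r ∣ Nat.card H → normalizer (piCoreOf {r} H : Set G) ≤ H) :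
    IsPiHall {p | p ∣ Nat.card H} H := by
  refine ⟨fun p _ h => h, fun r hr hd h => ?_⟩
  have := Fact.mk hr
  have h1 : IsPGroup r (piCoreOf {r} H) :=
    H1.isPiSubgroup_singleton_iff.mp (H1.isPiSubgroup_piCoreOf H)
  obtain ⟨S, hS⟩ := h1.exists_le_sylow
  have h2 : piCoreOf {r} H = S := by
    refine hS.eq_or_lt.resolve_right fun hlt => ?_
    have h2 := H5.lt_inf_normalizer S.2 hlt
    exact h2.not_ge (le_piCoreOf_of_isNilpotent hH (inf_le_right.trans (hN r hr hd))
      (H1.isPiSubgroup_singleton_iff.mpr (S.2.to_inf_left)))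
  exact S.not_dvd_index (h.trans (index_dvd_of_le (h2 ▸ H1.piCoreOf_le H)))

theorem piCoreOf_eq_inf_of_isNilpotent [Finite G] {A H : Subgroup G} (hA : Group.IsNilpotent A)
    (h : H ≤ A) (π : Set ℕ) : piCoreOf π H = piCoreOf π A ⊓ H :=
  le_antisymm (le_inf (le_piCoreOf_of_isNilpotent hA ((H1.piCoreOf_le H).trans h)
    (H1.isPiSubgroup_piCoreOf H)) (H1.piCoreOf_le H)) (H1.piCoreOf_inf_le h)

theorem piCoreOf_mono_set [Finite G] (A : Subgroup G) (h : π ⊆ σ) :
    piCoreOf π A ≤ piCoreOf σ A :=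
  map_mono (H1.piCore_mono h)

theorem map_piCoreOf_subgroupOf {A M : Subgroup G} (h : A ≤ M) (π : Set ℕ) :
    (piCoreOf π (A.subgroupOf M)).map M.subtype = piCoreOf π A := by
  rw [H1.map_piCoreOf_of_injective M.subtype_injective, map_subgroupOf_eq_of_le h]

theorem piCoreOf_subgroupOf {A M : Subgroup G} (h : A ≤ M) (π : Set ℕ) :
    piCoreOf π (A.subgroupOf M) = (piCoreOf π A).subgroupOf M := by
  rw [← map_piCoreOf_subgroupOf h π]
  exact (comap_map_eq_self_of_injective M.subtype_injective _).symm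

theorem orderOf_conj' (c r : G) : orderOf (c * r * c⁻¹) = orderOf r :=
  (MulAut.conj c).orderOf_eq r

theorem conj_mem_piCoreOf [Finite G] {A : Subgroup G} (hA : Group.IsNilpotent A) {c r : G}
    (hr : r ∈ piCoreOf π A) (h : c * r * c⁻¹ ∈ A) : c * r * c⁻¹ ∈ piCoreOf π A := by
  refine zpowers_le.mp (le_piCoreOf_of_isNilpotent hA (zpowers_le.mpr h) ?_)
  refine H1.isPiSubgroup_of_card_dvd (H1.isPiSubgroup_piCoreOf A) ?_
  rw [Nat.card_zpowers, orderOf_conj']
  exact H1.orderOf_dvd_card_of_mem hr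

/-- A nilpotent Hall subgroup `A` of a solvable group, of order divisible by two primes, none of
whose Sylow subgroups normalizes a nontrivial `π'`-subgroup, is normal. -/
theorem normal_of_isPiHall_of_isSolvable [Finite G] [Group.IsSolvable G] {A : Subgroup G}
    (hA : Group.IsNilpotent A) (hHall : IsPiHall π A)
    (h2 : ∀ s : ℕ, ∃ p : ℕ, p.Prime ∧ p ∣ Nat.card A ∧ p ≠ s)
    (hV : ∀ p : ℕ, p.Prime → p ∣ Nat.card A → ∀ V : Subgroup G, IsPiSubgroup πᶜ V →
      piCoreOf {p} A ≤ normalizer (V : Set G) → V = ⊥) : A.Normal := by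
  set F := fittingSubgroup G with hF
  have hFn : Group.IsNilpotent F := inferInstance
  have hnorm : ∀ τ : Set ℕ, (piCoreOf τ F).Normal := fun τ => by
    rw [← normalizer_eq_top_iff, eq_top_iff]
    exact (normalizer_eq_top_iff.mpr inferInstance).ge.trans (H1.normalizer_le_normalizer_piCoreOf F)
  have hFA : F ≤ A := by
    obtain ⟨p, hp, hpA, -⟩ := h2 0
    have := hnorm π
    have := hnorm πᶜ
    rw [← piCoreOf_sup_compl hFn π, hV p hp hpA (piCoreOf πᶜ F) (H1.isPiSubgroup_piCoreOf F)
      le_normalizer_of_normal, sup_bot_eq]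
    exact H3.le_of_isPiHall_of_normal hHall (H1.isPiSubgroup_piCoreOf F)
  -- the centralizer of `F_τ` normalizes `A_τ'`... stated for `τ` and its complement
  have key : ∀ τ : Set ℕ, centralizer (piCoreOf τᶜ F : Set G) ≤
      normalizer (piCoreOf τᶜ A : Set G) := by
    intro τ
    have := hnorm τ
    have := hnorm τᶜ
    refine le_normalizer_iff.mpr fun c hc r hr => ?_
    have hr' : r ∈ centralizer (piCoreOf τ F : Set G) :=
      le_centralizer_of_isNilpotent hA (H1.piCoreOf_le A) ((H1.piCoreOf_le F).trans hFA)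
        (H1.isPiSubgroup_piCoreOf A) (H1.isPiSubgroup_piCoreOf F) disjoint_compl_left hr
    have h1 : ⁅c, r⁆ ∈ centralizer (piCoreOf τᶜ F : Set G) ⊓ centralizer (piCoreOf τ F : Set G) :=
      commutator_le_inf _ _ (commutator_mem_commutator hc hr')
    have h3 : ⁅c, r⁆ ∈ centralizer (F : Set G) := by
      have : F ≤ centralizer {⁅c, r⁆} := by
        rw [← piCoreOf_sup_compl hFn τ]
        exact sup_le (fun x hx => mem_centralizer_singleton_iff.mpr (h1.2 x hx))
          (fun x hx => mem_centralizer_singleton_iff.mpr (h1.1 x hx))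
      exact fun x hx => mem_centralizer_singleton_iff.mp (this hx)
    refine conj_mem_piCoreOf hA hr ?_
    have : c * r * c⁻¹ = ⁅c, r⁆ * r := by rw [commutatorElement_def]; group
    rw [this]
    exact A.mul_mem (hFA (H1.centralizer_fitting_le h3)) (H1.piCoreOf_le A hr)
  have hcent : ∀ τ : Set ℕ, piCoreOf τ A ≤ centralizer (piCoreOf τᶜ F : Set G) := fun τ =>
    le_centralizer_of_isNilpotent hA (H1.piCoreOf_le A) ((H1.piCoreOf_le F).trans hFA)
      (H1.isPiSubgroup_piCoreOf A) (H1.isPiSubgroup_piCoreOf F) disjoint_compl_right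
  have hcomm : ∀ (τ : Set ℕ) (g : G), MulAut.conj g • piCoreOf τ A ≤
      centralizer (piCoreOf τᶜ A : Set G) := by
    intro τ g
    have := hnorm τᶜ
    have := hnorm τᶜᶜ
    have h1 : MulAut.conj g • piCoreOf τ A ≤ normalizer (piCoreOf τᶜ A : Set G) := by
      refine le_trans ?_ (key τ)
      rw [← H1.mem_normalizer_iff_conj_smul_eq.mp (le_normalizer_of_normal
        (H := centralizer (piCoreOf τᶜ F : Set G)) (mem_top g))]
      exact conj_smul_mono g (hcent τ)
    have h3 : piCoreOf τᶜ A ≤ normalizer ((MulAut.conj g • piCoreOf τ A : Subgroup G) : Set G) := by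
      rw [H1.normalizer_conj_smul]
      refine (hcent τᶜ).trans ?_
      rw [← H1.mem_normalizer_iff_conj_smul_eq.mp (le_normalizer_of_normal
        (H := centralizer (piCoreOf τᶜᶜ F : Set G)) (mem_top g))]
      refine conj_smul_mono g ((key τᶜ).trans ?_)
      rw [compl_compl]
    rw [← commutator_eq_bot_iff_le_centralizer, eq_bot_iff,
      ← H1.inf_eq_bot_of_isPiSubgroup (H1.isPiSubgroup_conj_smul (H1.isPiSubgroup_piCoreOf A) g)
        (H1.isPiSubgroup_piCoreOf A) (disjoint_compl_right (a := τ))]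
    exact le_inf (le_normalizer_iff_commutator_le_left.mp h3)
      (le_normalizer_iff_commutator_le_right.mp h1)
  have hsyl : ∀ p : ℕ, piCoreOf {p} A ≤ piCore π G := by
    intro p
    obtain ⟨s, hs, hsA, hsp⟩ := h2 p
    set X := normalClosure (piCoreOf {p} A : Set G)
    have hX : X ≤ centralizer (piCoreOf {s} A : Set G) := by
      refine le_trans ?_ (centralizer_le (piCoreOf_mono_set A
        (Set.singleton_subset_iff.mpr hsp : ({s} : Set ℕ) ⊆ {p}ᶜ)))
      refine (closure_le _).mpr fun y hy => ?_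
      obtain ⟨z, hz, hzy⟩ := Group.mem_conjugatesOfSet_iff.mp hy
      obtain ⟨g, rfl⟩ := isConj_iff.mp hzy
      exact hcomm {p} g (H1.conj_mem_conj_smul hz)
    obtain ⟨V, hVX⟩ := H3.exists_isPiHallOf (M := X) inferInstance πᶜ
    have hV0 : V = ⊥ := hV s hs hsA V hVX.2.1
      ((le_centralizer_iff.mp (hVX.1.trans hX)).trans (centralizer_le_normalizer _))
    have hXπ : IsPiSubgroup π X := by
      have := (H3.isPiHallOf_iff.mp hVX).2.2
      rwa [hV0, relIndex_bot_left, H3.piNum_compl_compl] at this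
    exact le_normalClosure.trans (H1.le_piCore hXπ)
  have hAO : A = piCore π G := by
    refine le_antisymm (relIndex_eq_one.mp ?_) (H1.piCore_le_of_isPiHall hHall)
    by_contra hne
    obtain ⟨p, hp, hpd⟩ := Nat.exists_prime_and_dvd hne
    exact (isPiHallOf_piCoreOf hA {p}).2.2 p hp rfl (hpd.trans (relIndex_dvd_of_le_left A (hsyl p)))
  rw [hAO]
  infer_instance

end H22
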