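import Cfsg.Agent.Base
import Cfsg.Agent.Lib.Fact.KW1
import Cfsg.Agent.S0023

/-!
Wielandt's theorem: a finite group with nilpotent Hall `π`- and `π'`-subgroups is solvable.
-/

set_option autoImplicit false

namespace H22

open Subgroup Cfsg
open scoped Pointwise commutatorElement

universe u

variable {G : Type u} [Group G] {π : Set ℕ}

/-- The minimal counterexample to Wielandt's theorem. -/
structure KWCtx (π : Set ℕ) (A B : Subgroup G) : Prop where
  simple : IsSimpleGroup G
  nonsolv : ¬ Group.IsSolvable G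
  nilA : Group.IsNilpotent A
  nilB : Group.IsNilpotent B
  hallA : IsPiHall π A
  hallB : IsPiHall πᶜ B
  ih : ∀ (M A' B' : Subgroup G), M ≠ ⊤ → Group.IsNilpotent A' → Group.IsNilpotent B' →
    IsPiHallOf π A' M → IsPiHallOf πᶜ B' M → Group.IsSolvable M

namespace KWCtx

variable [Finite G] {A B : Subgroup G}

omit [Finite G] in
theorem symm (h : KWCtx π A B) : KWCtx πᶜ B A :=
  ⟨h.simple, h.nonsolv, h.nilB, h.nilA, h.hallB, by rw [compl_compl]; exact h.hallA,
    fun M A' B' hM hA hB h1 h2 => h.ih M B' A' hM hB hA (by rwa [compl_compl] at h2) h1⟩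

omit [Finite G] in
theorem conj_right (h : KWCtx π A B) (y : G) : KWCtx π A (MulAut.conj y • B) :=
  ⟨h.simple, h.nonsolv, h.nilA, isNilpotent_conj_smul h.nilB y, h.hallA,
    H3.isPiHall_conj_smul h.hallB y, h.ih⟩

omit [Finite G] in
theorem conj_left (h : KWCtx π A B) (y : G) : KWCtx π (MulAut.conj y • A) B :=
  ⟨h.simple, h.nonsolv, isNilpotent_conj_smul h.nilA y, h.nilB,
    H3.isPiHall_conj_smul h.hallA y, h.hallB, h.ih⟩

theorem fz (h : KWCtx π A B) : Fz A B :=
  Fz.of_mul_eq_univ (H3.isComplement'_of_isPiHall h.hallA h.hallB).mul_eq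

omit [Finite G] in
theorem inf_eq_bot (h : KWCtx π A B) : A ⊓ B = ⊥ :=
  H1.inf_eq_bot_of_isPiSubgroup h.hallA.1 h.hallB.1 disjoint_compl_right

omit [Finite G] in
theorem normalizer_ne_top (h : KWCtx π A B) {U : Subgroup G} (hU : U ≠ ⊥)
    (hs : Group.IsSolvable U) : normalizer (U : Set G) ≠ ⊤ := by
  intro e
  have := h.simple
  rcases (normalizer_eq_top_iff.mp e).eq_bot_or_eq_top with h1 | h1
  · exact hU h1
  · subst h1
    exact h.nonsolv (H1.isSolvable_of_mulEquiv topEquiv hs)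

theorem isPiHallOf_inf (h : KWCtx π A B) {M : Subgroup G}
    (hM : Fz (A.subgroupOf M) (B.subgroupOf M)) : IsPiHallOf π (A ⊓ M) M := by
  refine H3.isPiHallOf_iff.mpr ⟨inf_le_right, H1.isPiSubgroup_of_le h.hallA.1 inf_le_left, ?_⟩
  rw [inf_relIndex_right]
  exact H3.PiNum.of_dvd h.hallB.1 (hM.index_dvd_card.trans (H3.card_subgroupOf_dvd B M))

theorem isSolvable (h : KWCtx π A B) {M : Subgroup G} (hne : M ≠ ⊤)
    (hM : Fz (A.subgroupOf M) (B.subgroupOf M)) : Group.IsSolvable M :=
  h.ih M _ _ hne (isNilpotent_of_le h.nilA inf_le_left) (isNilpotent_of_le h.nilB inf_le_left)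
    (h.isPiHallOf_inf hM) (h.symm.isPiHallOf_inf hM.symm)

theorem exists_prime_ne (h : KWCtx π A B) (s : ℕ) : ∃ p : ℕ, p.Prime ∧ p ∣ Nat.card A ∧ p ≠ s := by
  by_contra hc
  push Not at hc
  obtain ⟨p, k, hp, hk⟩ : ∃ p k : ℕ, p.Prime ∧ Nat.card A = p ^ k := by
    by_cases h1 : Nat.card A = 1
    · exact ⟨2, 0, Nat.prime_two, h1⟩
    · obtain ⟨p, hp, hd⟩ := Nat.exists_prime_and_dvd h1
      obtain ⟨k, hk⟩ := (H3.piNum_singleton_iff hp (Nat.card_pos (α := A)).ne').mp
        fun q hq hqd => (hc q hq hqd).trans (hc p hp hd).symm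
      exact ⟨p, k, hp, hk⟩
  have hB : B ≠ ⊥ := by
    rintro rfl
    have := h.fz.sup_eq_top
    rw [sup_bot_eq] at this
    subst this
    have := h.nilA
    exact h.nonsolv (H1.isSolvable_of_mulEquiv topEquiv inferInstance)
  have := h.nilB
  have := (nontrivial_iff_ne_bot B).mpr hB
  obtain ⟨⟨z, hz⟩, hz1⟩ := ne_bot_iff_exists_ne_one.mp (Group.IsNilpotent.center_ne_bot B)
  have hz1' : (z : G) ≠ 1 := fun e => hz1 (Subtype.ext (Subtype.ext e))
  have h1 : B ≤ centralizer {(z : G)} := fun b hb => mem_centralizer_singleton_iff.mpr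
    (congrArg Subtype.val (mem_center_iff.mp hz ⟨b, hb⟩))
  obtain ⟨j, -, hj⟩ := (Nat.dvd_prime_pow hp).mp
    (hk ▸ (index_dvd_of_le h1).trans h.fz.symm.index_dvd_card)
  have := h.simple
  have := Fact.mk (Cfsg.Agent.S0143.result p j hp (z : G) hz1' hj)
  have : IsCyclic G := isCyclic_of_prime_card rfl
  exact h.nonsolv (H2.isSolvable_of_isMulCommutative inferInstance)

theorem hall_singleton (h : KWCtx π A B) {p : ℕ} (hp : p ∈ π) : IsPiHall {p} (piCoreOf {p} A) :=
  isPiHall_piCoreOf h.nilA h.hallA (Set.singleton_subset_iff.mpr hp)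

theorem sup_eq_top (h : KWCtx π A B) {p q : ℕ} (hp : p.Prime) (hq : q.Prime)
    (hpA : p ∣ Nat.card A) (hqB : q ∣ Nat.card B) : piCoreOf {p} A ⊔ piCoreOf {q} B = ⊤ := by
  by_contra hne
  have hP := piCoreOf_singleton_ne_bot h.nilA hp hpA
  have hQ := piCoreOf_singleton_ne_bot h.nilB hq hqB
  have := h.simple
  set P := piCoreOf {p} A
  set Q := piCoreOf {q} B
  have hAP : A ≤ normalizer (P : Set G) := H1.le_normalizer_piCoreOf A
  have hBQ : B ≤ normalizer (Q : Set G) := H1.le_normalizer_piCoreOf B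
  set L := normalizer ((P ⊔ Q : Subgroup G) : Set G)
  have hL : L ≠ ⊤ := fun e => by
    rcases (normalizer_eq_top_iff.mp e).eq_bot_or_eq_top with h1 | h1
    · exact hP (le_bot_iff.mp (h1 ▸ le_sup_left))
    · exact hne h1
  have hfz := h.fz.normalizer_sup_subgroupOf hAP hBQ
  have := h.isSolvable hL hfz
  have hPL : P ≤ L := le_sup_left.trans le_normalizer
  have hQL : Q ≤ L := le_sup_right.trans le_normalizer
  have h1 : Permutes P Q := Permutes.of_subgroupOf hPL hQL (hfz.permutes_of_isPiHall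
    ((comap_mono hAP).trans (le_normalizer_comap _)) ((comap_mono hBQ).trans (le_normalizer_comap _))
    ((H3.isPiHallOf_iff_subgroupOf hPL).mp
      (H3.isPiHallOf_of_isPiHall (h.hall_singleton (h.hallA.1 p hp hpA)) hPL))
    ((H3.isPiHallOf_iff_subgroupOf hQL).mp
      (H3.isPiHallOf_of_isPiHall (h.symm.hall_singleton (h.hallB.1 q hq hqB)) hQL)))
  have h2 : ∀ x : G, Permutes P (MulAut.conj x • Q) := by
    intro x
    obtain ⟨g, e1, e2⟩ := h.fz.exists_conj hAP hBQ 1 x
    rw [map_one, one_smul] at e1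
    have := h1.conj g
    rwa [← e1, ← e2] at this
  rcases kegel P Q h2 hne with h3 | h3
  · exact hP (le_bot_iff.mp ((Normal.eq_bot_or_eq_top inferInstance).resolve_right h3 ▸
      le_normalClosure))
  · exact hQ (le_bot_iff.mp ((Normal.eq_bot_or_eq_top inferInstance).resolve_right h3 ▸
      le_normalClosure))

theorem exists_le_conj (h : KWCtx π A B) {q : ℕ} (hq : q.Prime) (hqπ : q ∈ π) {V : Subgroup G}
    (hV : IsPGroup q V) : ∃ g : G, V ≤ MulAut.conj g • A := by
  have := Fact.mk hq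
  obtain ⟨Q, hQ⟩ := exists_sylow_of_isPiHall (h.hall_singleton hqπ)
  obtain ⟨g, hg⟩ := H4.exists_conj_smul_le_sylow Q hV
  refine ⟨g⁻¹, ?_⟩
  rw [← H1.conj_inv_smul_conj_smul g V]
  exact conj_smul_mono _ (hg.trans (hQ ▸ H1.piCoreOf_le A))

theorem eq_bot_of_le_normalizer (h : KWCtx π A B) {p : ℕ} (hp : p.Prime) (hpA : p ∣ Nat.card A)
    (V : Subgroup G) (hV : IsPiSubgroup πᶜ V) (hn : piCoreOf {p} A ≤ normalizer (V : Set G)) :
    V = ⊥ := by
  by_contra hne
  obtain ⟨q, hq, hqV⟩ := Nat.exists_prime_and_dvd fun e => hne (card_eq_one.mp e)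
  have := Fact.mk hq
  have hPA : IsPiSubgroup π (piCoreOf {p} A) := H1.isPiSubgroup_of_le h.hallA.1 (H1.piCoreOf_le A)
  obtain ⟨Q, hQ⟩ := Cfsg.Agent.S0023.result _ V hn
    (H1.coprime_card_of_isPiSubgroup hPA hV disjoint_compl_right)
    (Or.inl (H1.isSolvable_of_le (have := h.nilA; inferInstance) (H1.piCoreOf_le A))) q
  set W : Subgroup G := (Q : Subgroup V).map V.subtype
  have hW : IsPGroup q W := Q.2.map _
  have hW1 : W ≠ ⊥ := fun e => Q.ne_bot_of_dvd_card hqV
    ((map_eq_bot_iff_of_injective _ V.subtype_injective).mp e)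
  obtain ⟨g, hg⟩ := h.symm.exists_le_conj hq (hV q hq hqV) hW
  have h' := h.conj_right g
  obtain ⟨t, ht, htB, htq⟩ := h'.symm.exists_prime_ne q
  refine h.normalizer_ne_top hW1 (H1.isSolvable_of_isPGroup hW) ?_
  rw [eq_top_iff, ← h'.sup_eq_top hp ht hpA htB]
  refine sup_le hQ (le_trans ?_ (centralizer_le_normalizer _))
  exact le_centralizer_of_isNilpotent h'.nilB (H1.piCoreOf_le _) hg (H1.isPiSubgroup_piCoreOf _)
    (H1.isPiSubgroup_singleton_iff.mpr hW) (Set.disjoint_singleton.mpr htq)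

theorem le_normalizer_of_le (h : KWCtx π A B) {M : Subgroup G} (hne : M ≠ ⊤) (hAM : A ≤ M) :
    M ≤ normalizer (A : Set G) := by
  have := h.isSolvable hne (h.fz.subgroupOf_of_le_left hAM)
  refine le_normalizer_of_normal_subgroupOf hAM (normal_of_isPiHall_of_isSolvable
    (isNilpotent_subgroupOf h.nilA M)
    ((H3.isPiHallOf_iff_subgroupOf hAM).mp (H3.isPiHallOf_of_isPiHall h.hallA hAM)) ?_ ?_)
  · rw [H1.card_subgroupOf_of_le hAM]
    exact h.exists_prime_ne
  · rw [H1.card_subgroupOf_of_le hAM]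
    intro p hp hpA V hV hn
    refine (map_eq_bot_iff_of_injective _ M.subtype_injective).mp
      (h.eq_bot_of_le_normalizer hp hpA _ (H1.isPiSubgroup_map hV _) ?_)
    rw [← map_piCoreOf_subgroupOf hAM]
    exact (map_mono hn).trans (le_normalizer_map _)

theorem normalizer_le_of_le_normalizer (h : KWCtx π A B) {U : Subgroup G} (hU : U ≠ ⊥)
    (hUA : U ≤ A) (hn : A ≤ normalizer (U : Set G)) :
    normalizer (U : Set G) ≤ normalizer (A : Set G) :=
  h.le_normalizer_of_le (h.normalizer_ne_top hU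
    (H1.isSolvable_of_le (have := h.nilA; inferInstance) hUA)) hn

theorem normalizer_piCoreOf_le (h : KWCtx π A B) {p : ℕ} (hp : p.Prime) (hpA : p ∣ Nat.card A) :
    normalizer (piCoreOf {p} A : Set G) ≤ normalizer (A : Set G) :=
  h.normalizer_le_of_le_normalizer (piCoreOf_singleton_ne_bot h.nilA hp hpA) (H1.piCoreOf_le A)
    (H1.le_normalizer_piCoreOf A)

theorem mem_normalizer_of_conj_le (h : KWCtx π A B) {p : ℕ} (hp : p.Prime) (hpA : p ∣ Nat.card A)
    {g : G} (hg : MulAut.conj g • piCoreOf {p} A ≤ normalizer (A : Set G)) :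
    g ∈ normalizer (A : Set G) := by
  refine h.normalizer_piCoreOf_le hp hpA (H1.mem_normalizer_iff_conj_smul_eq.mpr ?_)
  refine eq_of_le_of_card_ge ?_ (H1.card_conj_smul _ _).ge
  exact H3.le_of_isPiHallOf_of_normalizes
    (H3.isPiHallOf_top_iff.mpr (h.hall_singleton (h.hallA.1 p hp hpA))) le_top
    (hg.trans (H1.normalizer_le_normalizer_piCoreOf A))
    (H1.isPiSubgroup_conj_smul (H1.isPiSubgroup_piCoreOf A) g)

theorem le_normalizer_of_compl_le (h : KWCtx π A B) {M : Subgroup G} (hne : M ≠ ⊤)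
    (hM : Fz (A.subgroupOf M) (B.subgroupOf M)) {s : ℕ} (hs : piCoreOf {s}ᶜ A ≤ M) :
    M ≤ normalizer (A : Set G) := by
  have hsolv := h.isSolvable hne hM
  have hHall := h.isPiHallOf_inf hM
  obtain ⟨p, hp, hpA, hps⟩ := h.exists_prime_ne s
  have hpM : piCoreOf {p} A ≤ M :=
    (piCoreOf_mono_set A (Set.singleton_subset_iff.mpr hps : ({p} : Set ℕ) ⊆ {s}ᶜ)).trans hs
  have hcoreA : ∀ r : ℕ, r.Prime → pCoreOf r M ≤ A := by
    intro r hr
    have := Fact.mk hr
    have h1 : IsPiSubgroup {r} (pCoreOf r M) :=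
      H1.isPiSubgroup_singleton_iff.mpr (H1.isPGroup_pCoreOf M)
    by_cases hrπ : r ∈ π
    · exact (H3.le_of_isPiHallOf_of_le_normalizer hHall (H1.pCoreOf_le M)
        (inf_le_right.trans (H1.le_normalizer_pCoreOf M))
        (H1.isPiSubgroup_mono h1 (Set.singleton_subset_iff.mpr hrπ))).trans inf_le_left
    · rw [h.eq_bot_of_le_normalizer hp hpA _
        (H1.isPiSubgroup_mono h1 (Set.singleton_subset_iff.mpr hrπ))
        (hpM.trans (H1.le_normalizer_pCoreOf M))]
      exact bot_le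
  by_cases hc : ∃ r : ℕ, r.Prime ∧ r ≠ s ∧ pCoreOf r M ≠ ⊥
  · obtain ⟨r, hr, hrs, hU⟩ := hc
    have := Fact.mk hr
    refine (H1.le_normalizer_pCoreOf M).trans
      (h.normalizer_le_of_le_normalizer hU (hcoreA r hr) ?_)
    rw [← piCoreOf_sup_compl h.nilA {r}]
    refine sup_le (le_trans ?_ (H1.le_normalizer_pCoreOf M))
      (le_trans ?_ (centralizer_le_normalizer _))
    · exact (piCoreOf_mono_set A (Set.singleton_subset_iff.mpr hrs : ({r} : Set ℕ) ⊆ {s}ᶜ)).trans hs
    · exact le_centralizer_of_isNilpotent h.nilA (H1.piCoreOf_le A) (hcoreA r hr)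
        (H1.isPiSubgroup_piCoreOf A) (H1.isPiSubgroup_singleton_iff.mpr (H1.isPGroup_pCoreOf M))
        disjoint_compl_left
  · exfalso
    push Not at hc
    have hF : fittingOf M ≤ piCoreOf {s} A := by
      rw [H1.fittingOf_eq_iSup_pCoreOf]
      refine iSup_le fun r => ?_
      have := Fact.mk r.2
      by_cases hrs : (r : ℕ) = s
      · subst hrs
        exact le_piCoreOf_of_isNilpotent h.nilA (hcoreA r r.2)
          (H1.isPiSubgroup_singleton_iff.mpr (H1.isPGroup_pCoreOf M))
      · rw [hc r r.2 hrs]; exact bot_le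
    have hdis : Disjoint ({p} : Set ℕ) {s} := Set.disjoint_singleton.mpr hps
    have h1 : piCoreOf {p} A ≤ piCoreOf {s} A :=
      ((le_inf hpM ((piCoreOf_le_centralizer A hdis).trans (centralizer_le hF))).trans
        (H1.inf_centralizer_fittingOf_le hsolv)).trans hF
    apply piCoreOf_singleton_ne_bot h.nilA hp hpA
    rw [← H1.inf_eq_bot_of_isPiSubgroup (H1.isPiSubgroup_piCoreOf A) (H1.isPiSubgroup_piCoreOf A)
      hdis, inf_of_le_left h1]

theorem normalizer_le_of_normalizes (h : KWCtx π A B) {E : Subgroup G} (hE : E ≠ ⊥) (hEA : E ≤ A)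
    (hEB : E ≤ normalizer (B : Set G)) {s : ℕ} (hs : IsPiSubgroup {s} E) :
    normalizer (E : Set G) ≤ normalizer (A : Set G) := by
  refine h.le_normalizer_of_compl_le (s := s) (h.normalizer_ne_top hE
    (H1.isSolvable_of_le (have := h.nilA; inferInstance) hEA)) (Fz.symm (Fz.subgroupOf ?_)) ?_
  · intro g hg
    obtain ⟨b, hb, a, ha, rfl⟩ := h.fz.symm g
    refine ⟨b, ⟨hb, centralizer_le_normalizer _ fun e he => ?_⟩, a, ha, rfl⟩
    have h1 : (b * a)⁻¹ * e * (b * a) ∈ E := (mem_normalizer_iff''.mp hg e).mp he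
    have h2 : b⁻¹ * e * b * e⁻¹ ∈ A ⊓ B := by
      constructor
      · have : b⁻¹ * e * b * e⁻¹ = a * ((b * a)⁻¹ * e * (b * a)) * a⁻¹ * e⁻¹ := by group
        rw [SetLike.mem_coe, this]
        exact A.mul_mem (A.mul_mem (A.mul_mem ha (hEA h1)) (A.inv_mem ha)) (A.inv_mem (hEA he))
      · have : b⁻¹ * e * b * e⁻¹ = b⁻¹ * (e * b * e⁻¹) := by group
        rw [SetLike.mem_coe, this]
        exact B.mul_mem (B.inv_mem hb) ((mem_normalizer_iff.mp (hEB he) b).mp hb)
    rw [h.inf_eq_bot, mem_bot] at h2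
    calc e * b = b * (b⁻¹ * e * b * e⁻¹) * e := by group
      _ = b * e := by rw [h2, mul_one]
  · exact (le_centralizer_of_isNilpotent h.nilA (H1.piCoreOf_le A) hEA
      (H1.isPiSubgroup_piCoreOf A) hs disjoint_compl_left).trans (centralizer_le_normalizer _)

theorem centralizer_le_normalizer' (h : KWCtx π A B) {s : ℕ} (hs : s.Prime) {D : Subgroup G}
    (hD : D ≠ ⊥) (hDA : D ≤ A) (hDs : IsPiSubgroup {s} D) :
    centralizer (D : Set G) ≤ normalizer (A : Set G) := by
  by_contra hcon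
  obtain ⟨D, ⟨hD, hDA, hDs, hcon⟩, hmax⟩ := (wellFounded_gt (α := Subgroup G)).has_min
    {D : Subgroup G | D ≠ ⊥ ∧ D ≤ A ∧ IsPiSubgroup {s} D ∧
      ¬ centralizer (D : Set G) ≤ normalizer (A : Set G)} ⟨D, hD, hDA, hDs, hcon⟩
  have := Fact.mk hs
  have hsD : s ∣ Nat.card D := by
    obtain ⟨q, hq, hqD⟩ := Nat.exists_prime_and_dvd fun e => hD (card_eq_one.mp e)
    rwa [hDs q hq hqD] at hqD
  have hsA : s ∣ Nat.card A := hsD.trans (card_dvd_of_le hDA)
  have hDlt : D < piCoreOf {s} A := by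
    refine lt_of_le_of_ne (le_piCoreOf_of_isNilpotent h.nilA hDA hDs) fun e => hcon ?_
    rw [e]
    exact (centralizer_le_normalizer _).trans (h.normalizer_piCoreOf_le hs hsA)
  have hAs : IsPGroup s (piCoreOf {s} A) :=
    H1.isPiSubgroup_singleton_iff.mp (H1.isPiSubgroup_piCoreOf A)
  have hDS := H5.lt_inf_normalizer hAs hDlt
  set S := piCoreOf {s} A ⊓ normalizer (D : Set G) with hS
  have hSA : S ≤ A := inf_le_left.trans (H1.piCoreOf_le A)
  have hSs : IsPiSubgroup {s} S := H1.isPiSubgroup_of_le (H1.isPiSubgroup_piCoreOf A) inf_le_left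
  have hCS : centralizer (S : Set G) ≤ normalizer (A : Set G) := by
    by_contra hc
    exact hmax S ⟨fun e => hD (le_bot_iff.mp (e ▸ hDS.le)), hSA, hSs, hc⟩ hDS
  obtain ⟨p, hp, hpA, hps⟩ := h.exists_prime_ne s
  have hcent : ∀ r : ℕ, r ≠ s → ∀ {X : Subgroup G}, X ≤ A → IsPiSubgroup {s} X →
      piCoreOf {r} A ≤ centralizer (X : Set G) := fun r hr X hX hXs =>
    le_centralizer_of_isNilpotent h.nilA (H1.piCoreOf_le A) hX (H1.isPiSubgroup_piCoreOf A) hXs
      (Set.disjoint_singleton.mpr hr)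
  have hNS : normalizer (S : Set G) ≤ normalizer (A : Set G) := by
    intro n hn
    refine h.mem_normalizer_of_conj_le hp hpA (le_trans ?_ hCS)
    rw [← H1.mem_normalizer_iff_conj_smul_eq.mp hn, H1.centralizer_conj_smul]
    exact conj_smul_mono n (hcent p hps hSA hSs)
  set C := centralizer (D : Set G) with hC
  have hSC : S ≤ normalizer (C : Set G) := H2.le_normalizer_centralizer inf_le_right
  set T := C ⊔ S with hT
  have hTD : T ≤ normalizer (D : Set G) := sup_le (centralizer_le_normalizer _) inf_le_right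
  by_cases hTA : T ⊓ normalizer (A : Set G) ≤ A
  · -- Wielandt's normal complement theorem applies in `T`
    have hHn : Group.IsNilpotent (A.subgroupOf T) := isNilpotent_subgroupOf h.nilA T
    have hcard : Nat.card (A.subgroupOf T) = Nat.card (A ⊓ T : Subgroup G) :=
      H1.card_subgroupOf_eq A T
    have hdvd : ∀ r : ℕ, r.Prime → r ∣ Nat.card A → r ∣ Nat.card (A.subgroupOf T) := by
      intro r hr hrA
      rw [hcard]
      by_cases hrs : r = s
      · exact hrs ▸ hsD.trans (card_dvd_of_le (le_inf hDA (hDS.le.trans le_sup_right)))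
      · have h1 : piCoreOf {r} A ≤ A ⊓ T :=
          le_inf (H1.piCoreOf_le A) ((hcent r hrs hDA hDs).trans le_sup_left)
        obtain ⟨q, hq, hqD⟩ := Nat.exists_prime_and_dvd fun e =>
          piCoreOf_singleton_ne_bot h.nilA hr hrA (card_eq_one.mp e)
        rw [H1.isPiSubgroup_piCoreOf A q hq hqD] at hqD
        exact hqD.trans (card_dvd_of_le h1)
    have hN : ∀ r : ℕ, r.Prime → r ∣ Nat.card (A.subgroupOf T) →
        normalizer (piCoreOf {r} (A.subgroupOf T) : Set T) ≤ A.subgroupOf T := by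
      intro r hr hrd x hx
      have h1 : (x : G) ∈ normalizer (((piCoreOf {r} (A.subgroupOf T)).map T.subtype :
        Subgroup G) : Set G) := le_normalizer_map _ ⟨x, hx, rfl⟩
      rw [← inf_subgroupOf_right, map_piCoreOf_subgroupOf inf_le_right,
        piCoreOf_eq_inf_of_isNilpotent h.nilA inf_le_left, ← inf_assoc,
        inf_of_le_left (H1.piCoreOf_le A)] at h1
      refine hTA ⟨x.2, ?_⟩
      by_cases hrs : r = s
      · subst hrs
        have : piCoreOf {r} A ⊓ T = S :=
          le_antisymm (inf_le_inf_left _ hTD) (le_inf inf_le_left le_sup_right)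
        rw [this] at h1
        exact hNS h1
      · rw [inf_of_le_left ((hcent r hrs hDA hDs).trans le_sup_left)] at h1
        exact h.normalizer_piCoreOf_le hr (hrd.trans (H3.card_subgroupOf_dvd A T)) h1
    have hHall := isPiHall_of_normalizer_le hHn hN
    have hcompl := isComplement'_pResidual_of_normalizer_le hHn hHall hp hs hps (hdvd p hp hpA)
      (hdvd s hs hsA) hN
    have := H4.pResidual_normal (Nat.card (A.subgroupOf T)) T
    set K := pResidual (Nat.card (A.subgroupOf T)) T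
    have hK : IsPiSubgroup πᶜ (K.map T.subtype) := by
      intro r hr hrK hrπ
      rw [card_subtype] at hrK
      have h1 : r ∣ Nat.card A := by
        have h2 : r ∣ Nat.card G :=
          (hrK.trans (card_subgroup_dvd_card K)).trans (card_subgroup_dvd_card T)
        rw [← A.card_mul_index] at h2
        exact ((Nat.Prime.dvd_mul hr).mp h2).resolve_right (h.hallA.2 r hr hrπ)
      exact hHall.2 r hr (hdvd r hr h1) (hcompl.index_eq_card ▸ hrK)
    have hK0 : K.map T.subtype = ⊥ := by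
      refine h.eq_bot_of_le_normalizer hp hpA _ hK
        (((hcent p hps hDA hDs).trans (le_sup_left : C ≤ T)).trans ?_)
      intro t ht
      exact le_normalizer_map _ ⟨⟨t, ht⟩, le_normalizer_of_normal (mem_top _), rfl⟩
    have h3 := hcompl.sup_eq_top
    rw [(map_eq_bot_iff_of_injective _ T.subtype_injective).mp hK0, bot_sup_eq,
      subgroupOf_eq_top] at h3
    exact hcon ((le_sup_left.trans h3).trans le_normalizer)
  · set W := T ⊓ normalizer (A : Set G)
    obtain ⟨r, hr, hrW⟩ := Nat.exists_prime_and_dvd fun e => hTA (relIndex_eq_one.mp e)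
    have hrπ : r ∈ πᶜ := fun hrπ => by
      refine h.hallA.2 r hr hrπ (hrW.trans ?_)
      rw [← H1.relIndex_sup_of_le_normalizer (inf_le_right : W ≤ _)]
      exact relIndex_dvd_index_of_le le_sup_right
    obtain ⟨b, hb, hbr⟩ := H1.exists_mem_orderOf_eq_prime hr (hrW.trans (relIndex_dvd_card A W))
    have hrs : r ≠ s := fun e => hrπ (e ▸ h.hallA.1 s hs hsA)
    have hbC : b ∈ C := by
      have : (C.subgroupOf T).Normal := normal_subgroupOf_of_le_normalizer (sup_le le_normalizer hSC)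
      refine H1.mem_of_coprime_index (x := (⟨b, hb.1⟩ : T)) (N := C.subgroupOf T) ?_
      rw [← orderOf_coe, hbr]
      refine (Nat.Prime.coprime_iff_not_dvd hr).mpr fun hd => hrs ?_
      change r ∣ C.relIndex (C ⊔ S) at hd
      rw [sup_comm, H1.relIndex_sup_of_le_normalizer hSC] at hd
      exact hSs r hr (hd.trans (relIndex_dvd_card C S))
    have := Fact.mk hr
    have hE : IsPGroup r (zpowers b) := IsPGroup.of_card (n := 1) (by
      rw [Nat.card_zpowers, hbr, pow_one])
    obtain ⟨g, hg⟩ := h.symm.exists_le_conj hr hrπ hE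
    have h' := h.conj_right g
    have hb1 : zpowers b ≠ ⊥ := by
      rw [Ne, zpowers_eq_bot]
      rintro rfl
      rw [orderOf_one] at hbr
      exact hr.one_lt.ne hbr
    have h1 := h'.symm.normalizer_le_of_normalizes hb1 hg (zpowers_le.mpr hb.2)
      (H1.isPiSubgroup_singleton_iff.mpr hE)
    have h2 : D ≤ normalizer ((MulAut.conj g • B : Subgroup G) : Set G) :=
      ((le_centralizer_iff.mp (zpowers_le.mpr hbC)).trans (centralizer_le_normalizer _)).trans h1
    exact hcon ((centralizer_le_normalizer _).trans (h'.normalizer_le_of_normalizes hD hDA h2 hDs))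

theorem card_le (h : KWCtx π A B) : Nat.card A ≤ Nat.card B := by
  obtain ⟨p, hp, hpA, -⟩ := h.exists_prime_ne 0
  have hA : A ≠ ⊥ := fun e => by
    rw [e, card_bot] at hpA
    exact hp.one_lt.ne' (Nat.dvd_one.mp hpA)
  obtain ⟨g, hg⟩ : ∃ g : G, g ∉ normalizer (A : Set G) := by
    by_contra hc
    push Not at hc
    exact h.normalizer_ne_top hA (have := h.nilA; inferInstance) (eq_top_iff.mpr fun g _ => hc g)
  have h1 : A ⊓ MulAut.conj g • A = ⊥ := by
    by_contra hne
    obtain ⟨s, hs, hsd⟩ := Nat.exists_prime_and_dvd fun e => hne (card_eq_one.mp e)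
    obtain ⟨y, hy, hys⟩ := H1.exists_mem_orderOf_eq_prime hs hsd
    have := Fact.mk hs
    have hE : IsPiSubgroup {s} (zpowers y) := H1.isPiSubgroup_singleton_iff.mpr
      (IsPGroup.of_card (n := 1) (by rw [Nat.card_zpowers, hys, pow_one]))
    have hy1 : zpowers y ≠ ⊥ := by
      rw [Ne, zpowers_eq_bot]
      rintro rfl
      rw [orderOf_one] at hys
      exact hs.one_lt.ne hys
    obtain ⟨q, hq, hqA, hqs⟩ := h.exists_prime_ne s
    refine hg (h.mem_normalizer_of_conj_le hq hqA (le_trans ?_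
      (h.centralizer_le_normalizer' hs hy1 (zpowers_le.mpr hy.1) hE)))
    exact le_centralizer_of_isNilpotent (isNilpotent_conj_smul h.nilA g)
      (conj_smul_mono g (H1.piCoreOf_le A)) (zpowers_le.mpr hy.2)
      (H1.isPiSubgroup_conj_smul (H1.isPiSubgroup_piCoreOf A) g) hE (Set.disjoint_singleton.mpr hqs)
  have h2 := H1.card_mul_set_mul_card_inf A (MulAut.conj g • A)
  rw [h1, card_bot, mul_one, H1.card_conj_smul] at h2
  have h3 := h.fz.card_mul
  rw [h.inf_eq_bot, card_bot, mul_one] at h3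
  have h4 : Nat.card A * Nat.card A ≤ Nat.card A * Nat.card B := by
    rw [← h2, ← h3]
    exact Finite.card_subtype_le _
  exact Nat.le_of_mul_le_mul_left h4 Nat.card_pos

theorem false (h : KWCtx π A B) : False := by
  obtain ⟨p, hp, hpA, -⟩ := h.exists_prime_ne 0
  exact h.hallB.1 p hp (le_antisymm h.card_le h.symm.card_le ▸ hpA) (h.hallA.1 p hp hpA)

end KWCtx

theorem isSolvable_of_nilpotent_hall_aux (π : Set ℕ) (n : ℕ) :
    ∀ {G : Type u} [Group G] [Finite G] (A B : Subgroup G), Nat.card G = n →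
      Group.IsNilpotent A → Group.IsNilpotent B → IsPiHall π A → IsPiHall πᶜ B →
      Group.IsSolvable G := by
  induction n using Nat.strong_induction_on with | _ n ih => ?_
  intro G _ _ A B hn hA hB h1 h2
  have ih' : ∀ (M A' B' : Subgroup G), M ≠ ⊤ → Group.IsNilpotent A' → Group.IsNilpotent B' →
      IsPiHallOf π A' M → IsPiHallOf πᶜ B' M → Group.IsSolvable M :=
    fun M A' B' hM hA' hB' h1' h2' => ih _ (hn ▸ H1.card_lt_of_ne_top hM) _ _ rfl
      (isNilpotent_subgroupOf hA' M) (isNilpotent_subgroupOf hB' M)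
      ((H3.isPiHallOf_iff_subgroupOf h1'.1).mp h1') ((H3.isPiHallOf_iff_subgroupOf h2'.1).mp h2')
  by_contra hns
  have : Nontrivial G := by
    by_contra hc
    rw [not_nontrivial_iff_subsingleton] at hc
    exact hns inferInstance
  refine KWCtx.false ⟨⟨fun N hN => ?_⟩, hns, hA, hB, h1, h2, ih'⟩
  by_contra hc
  push Not at hc
  refine hns (H1.isSolvable_of_normal_of_quotient N ?_ ?_)
  · exact ih' N _ _ hc.2 (isNilpotent_of_le hA inf_le_left) (isNilpotent_of_le hB inf_le_left)
      (H3.isPiHallOf_inf_normal h1 N) (H3.isPiHallOf_inf_normal h2 N)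
  · exact ih _ (hn ▸ H1.card_quotient_lt hc.1) _ _ rfl (isNilpotent_map hA _) (isNilpotent_map hB _)
      (H3.isPiHall_map h1 (QuotientGroup.mk'_surjective N))
      (H3.isPiHall_map h2 (QuotientGroup.mk'_surjective N))

/-- Wielandt: a finite group with nilpotent Hall `π`- and `π'`-subgroups is solvable. -/
theorem isSolvable_of_nilpotent_hall [Finite G] {A B : Subgroup G} (hA : Group.IsNilpotent A)
    (hB : Group.IsNilpotent B) (h1 : IsPiHall π A) (h2 : IsPiHall πᶜ B) : Group.IsSolvable G :=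
  isSolvable_of_nilpotent_hall_aux π _ A B rfl hA hB h1 h2

theorem Fz.isSolvable_of_coprime [Finite G] {A B : Subgroup G} (h : Fz A B)
    (hA : Group.IsNilpotent A) (hB : Group.IsNilpotent B)
    (hc : (Nat.card A).Coprime (Nat.card B)) : Group.IsSolvable G :=
  isSolvable_of_nilpotent_hall hA hB (h.isPiHall_of_coprime hc).1 (h.isPiHall_of_coprime hc).2

end H22
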