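import Cfsg.Agent.Base
import Cfsg.Agent.Lib.Fact.KW2
import Cfsg.Agent.Lib.Fact.Ito
import Cfsg.Agent.Lib.Core.MinNormal

/-!
The Kegel-Wielandt theorem: a finite product of two nilpotent subgroups is solvable.
-/

set_option autoImplicit false

namespace H22

open Subgroup Cfsg
open scoped Pointwise commutatorElement

universe u

variable {G : Type u} [Group G]

theorem normalClosure_subgroupOf_eq_top {P N A : Subgroup G} [N.Normal] (hAN : A ⊔ N = ⊤)
    (hA : A ≤ normalizer (P : Set G)) (hN : N ≤ normalClosure (P : Set G)) :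
    normalClosure ((P.subgroupOf (normalClosure (P : Set G)) : Subgroup _) :
      Set (normalClosure (P : Set G))) = ⊤ := by
  set X := normalClosure (P : Set G)
  rw [eq_top_iff]
  set K := normalClosure ((P.subgroupOf X : Subgroup _) : Set X)
  have h1 : X ≤ K.map X.subtype := by
    refine (closure_le _).mpr fun y hy => ?_
    obtain ⟨z, hz, hzy⟩ := Group.mem_conjugatesOfSet_iff.mp hy
    obtain ⟨g, rfl⟩ := isConj_iff.mp hzy
    obtain ⟨n, hn, a, ha, rfl⟩ := (Fz.of_normal_right hAN).symm g
    have h2 : a * z * a⁻¹ ∈ P := (mem_normalizer_iff.mp (hA ha) z).mp hz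
    refine ⟨⟨n, hN hn⟩ * ⟨a * z * a⁻¹, le_normalClosure h2⟩ * ⟨n, hN hn⟩⁻¹,
      Normal.conj_mem inferInstance _ (le_normalClosure (H := P.subgroupOf X) h2) _, ?_⟩
    simp [mul_assoc]
  intro x _
  obtain ⟨y, hy, e⟩ := h1 x.2
  rwa [← Subtype.ext e]

theorem isSolvable_of_nilpotent_fz_aux (n : ℕ) :
    ∀ {G : Type u} [Group G] [Finite G] (A B : Subgroup G), Nat.card G = n →
      Group.IsNilpotent A → Group.IsNilpotent B → Fz A B → Group.IsSolvable G := by
  induction n using Nat.strong_induction_on with | _ n ih => ?_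
  intro G _ _ A B hn hA hB h
  by_contra hns
  have hq : ∀ N : Subgroup G, ∀ [N.Normal], N ≠ ⊥ → Group.IsSolvable (G ⧸ N) := fun N _ hN =>
    ih _ (hn ▸ H1.card_quotient_lt hN) _ _ rfl (isNilpotent_map hA _) (isNilpotent_map hB _)
      (h.quotient N)
  have hnn : ∀ N : Subgroup G, ∀ [N.Normal], N ≠ ⊥ → ¬ Group.IsSolvable N := fun N _ hN hs =>
    hns (H1.isSolvable_of_normal_of_quotient N hs (hq N hN))
  have : Nontrivial G := by
    by_contra hc
    rw [not_nontrivial_iff_subsingleton] at hc
    exact hns inferInstance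
  obtain ⟨N, hN⟩ := H3.exists_isMinNormal G
  have := hN.normal
  have huniq : ∀ K : Subgroup G, ∀ [K.Normal], K ≠ ⊥ → N ≤ K := by
    intro K _ hK
    refine (hN.inf_eq_bot_or_le K).resolve_left fun e => hnn N hN.ne_bot ?_
    have := hq K hK
    refine Group.isSolvable_of_isSolvable_injective (f := (QuotientGroup.mk' K).comp N.subtype) ?_
    rw [← MonoidHom.ker_eq_bot_iff, eq_bot_iff]
    intro x hx
    have : (x : G) ∈ N ⊓ K := ⟨x.2, (QuotientGroup.eq_one_iff _).mp hx⟩
    rw [e] at this
    exact Subtype.ext this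
  have hsup : ∀ {A B : Subgroup G}, Group.IsNilpotent A → Group.IsNilpotent B → Fz A B →
      A ⊔ N = ⊤ := by
    intro A B hA hB h
    by_contra hne
    exact hnn N hN.ne_bot (H1.isSolvable_of_le (ih _ (hn ▸ H1.card_lt_of_ne_top hne) _ _ rfl
      (isNilpotent_subgroupOf hA _) (isNilpotent_subgroupOf hB _)
      (h.subgroupOf_of_le_left le_sup_left)) le_sup_right)
  have hAN := hsup hA hB h
  have hBN := hsup hB hA h.symm
  refine hns (h.isSolvable_of_coprime hA hB (Nat.coprime_of_dvd fun p hp hpA hpB => ?_))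
  have := Fact.mk hp
  have hP := piCoreOf_singleton_ne_bot hA hp hpA
  have hQ := piCoreOf_singleton_ne_bot hB hp hpB
  have hPA := isPiHallOf_piCoreOf hA {p}
  have hQB := isPiHallOf_piCoreOf hB {p}
  set P := piCoreOf {p} A
  set Q := piCoreOf {p} B
  have hAP : A ≤ normalizer (P : Set G) := H1.le_normalizer_piCoreOf A
  have hBQ : B ≤ normalizer (Q : Set G) := H1.le_normalizer_piCoreOf B
  obtain ⟨hperm, hhall⟩ := h.sylow_permutes hPA hQB hAP hBQ
  have hNP : N ≤ normalClosure (P : Set G) :=
    huniq _ fun e => hP (le_bot_iff.mp (e ▸ le_normalClosure))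
  have hNQ : N ≤ normalClosure (Q : Set G) :=
    huniq _ fun e => hQ (le_bot_iff.mp (e ▸ le_normalClosure))
  -- both normal closures are the preimage of the Sylow subgroup of `G / N`
  have hle : ∀ {A P Q : Subgroup G}, A ⊔ N = ⊤ → IsPiHallOf {p} P A → IsPiSubgroup {p} Q →
      N ≤ normalClosure (P : Set G) → normalClosure (Q : Set G) ≤ normalClosure (P : Set G) := by
    intro A P Q hAN hPA hQ hNP
    refine normalClosure_le_normal (H1.le_of_coprime_index ?_)
    refine H3.PiNum.coprime (π := {p}) hQ ?_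
    have h1 : A ⊔ normalClosure (P : Set G) = ⊤ := by
      rw [eq_top_iff, ← hAN]; exact sup_le_sup_left hNP A
    rw [← relIndex_top_right, ← h1, H1.relIndex_sup_of_le_normalizer le_normalizer_of_normal]
    exact (H3.isPiHallOf_iff.mp hPA).2.2.of_dvd (relIndex_dvd_of_le_left A le_normalClosure)
  have heq : normalClosure (Q : Set G) = normalClosure (P : Set G) :=
    le_antisymm (hle hAN hPA hQB.2.1 hNP) (hle hBN hQB hPA.2.1 hNQ)
  have h1 := normalClosure_subgroupOf_eq_top hAN hAP hNP
  have h2 := normalClosure_subgroupOf_eq_top hBN hBQ hNQ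
  rw [heq] at h2
  set X := normalClosure (P : Set G)
  have hPX : P ≤ X := le_normalClosure
  have hQX : Q ≤ X := heq ▸ le_normalClosure
  have h3 : ∀ x : G, Permutes P (MulAut.conj x • Q) := by
    intro x
    obtain ⟨g, e1, e2⟩ := h.exists_conj hAP hBQ 1 x
    rw [map_one, one_smul] at e1
    have := hperm.conj g
    rwa [← e1, ← e2] at this
  refine (kegel (P.subgroupOf X) (Q.subgroupOf X) (fun x => ?_) fun e => ?_).elim
    (fun h => h h1) (fun h => h h2)
  · have h4 : MulAut.conj (x : G) • Q ≤ X :=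
      (conj_smul_mono _ hQX).trans (conj_smul_eq_self_of_mem x.2).le
    have := (h3 x).subgroupOf hPX h4
    rwa [subgroupOf, subgroupOf, ← coe_subtype, H1.comap_conj_smul] at this
  · have h4 := congrArg (map X.subtype) e
    rw [Subgroup.map_sup, map_subgroupOf_eq_of_le hPX, map_subgroupOf_eq_of_le hQX,
      ← MonoidHom.range_eq_map, range_subtype] at h4
    refine hnn N hN.ne_bot (H1.isSolvable_of_le ?_ hNP)
    rw [← h4]
    exact H1.isSolvable_of_isPGroup (H1.isPiSubgroup_singleton_iff.mp hhall.1)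

/-- The Kegel-Wielandt theorem. -/
theorem Fz.isSolvable [Finite G] {A B : Subgroup G} (h : Fz A B)
    (hA : Group.IsNilpotent A) (hB : Group.IsNilpotent B) : Group.IsSolvable G :=
  isSolvable_of_nilpotent_fz_aux _ A B rfl hA hB h

end H22
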